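import Cfsg.Agent.SchurBound.Bound
import Mathlib.GroupTheory.FiniteAbelian.Basic
import Mathlib.LinearAlgebra.Dual.Lemmas

set_option autoImplicit false

/-!
Two certificates bound the `p`-part of the Schur multiplier by `p ^ (r * k)`: one shows that it is
generated by `r` elements modulo `p`-th powers, the other that its exponent divides `p ^ k`.
-/

namespace Cfsg.Agent.SchurBound

open Subgroup Cfsg.Agent.SchurCert

universe u v

variable {G : Type v} [Group G] [Finite G] (C : Code G)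

/-- A certified configuration excludes suitable homomorphisms from the kernel of a stem extension
to a cyclic group. -/
theorem not_hom_of_bcert {B : BCert} {p : ℕ} {gen gsE : ℕ → G} (hA : Applies C B p gen gsE)
    (hq : B.q = p * B.scale) (hsc : 0 < B.scale)
    {Δ : Type u} [Group Δ] [Finite Δ] (τ : Δ →* G) (hτ : Cfsg.IsStemExtension τ)
    (s : ℕ → Δ) (hs : ∀ i, τ (s i) = gen i)
    (δ : ℕ → τ.ker)
    (hδp : ∀ j < B.D.P.n, s j ^ B.D.P.p = evalW s (B.D.P.powWord j) * (δ (PC.pVar j) : Δ))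
    (hδc : ∀ j < B.D.P.n, ∀ i < j,
      s j * s i = evalW s (B.D.P.cjWord j i) * (δ (PC.cVar j i) : Δ) * s j)
    (φ : τ.ker →* Multiplicative (ZMod B.q)) (hφ : Function.Surjective φ)
    (hkill : ∀ L ∈ B.kills, φ (L.map δ).prod = 1) : False := by
  haveI : NeZero B.q := ⟨by rw [hq]; exact (Nat.mul_pos hA.hp.pos hsc).ne'⟩
  obtain ⟨g, hg⟩ := hφ (Multiplicative.ofAdd 1)
  obtain ⟨Ω, _, _, θ, π, hθ, hπ, hcomp, hπk, hθk, hθcard⟩ := exists_quotient_stem hτ φ.ker
  have hgen : ∀ a : τ.ker, ∃ j : ℕ, φ a = φ g ^ j := fun a => ⟨(Multiplicative.toAdd (φ a)).val, by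
    rw [hg, ← ofAdd_nsmul, nsmul_eq_mul, mul_one, ZMod.natCast_zmod_val]; rfl⟩
  have hπ1 : ∀ a : τ.ker, φ a = 1 → π (a : Δ) = 1 := fun a ha => by
    rw [← MonoidHom.mem_ker, hπk]
    exact ⟨a, ha, rfl⟩
  have hzk : θ.ker = Subgroup.zpowers (π (g : Δ)) := by
    refine le_antisymm ?_ ((Subgroup.zpowers_le).2 (hθk ▸ Subgroup.mem_map_of_mem π g.2))
    rw [hθk]
    rintro _ ⟨y, hy, rfl⟩
    obtain ⟨j, hj⟩ := hgen ⟨y, hy⟩
    have h := hπ1 ((g ^ j)⁻¹ * ⟨y, hy⟩) (by rw [map_mul, map_inv, map_pow, hj, inv_mul_cancel])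
    simp only [Subgroup.coe_mul, InvMemClass.coe_inv, SubmonoidClass.coe_pow, map_mul, map_inv,
      map_pow] at h
    exact Subgroup.mem_zpowers_iff.2 ⟨j, by rw [zpow_natCast]; exact inv_mul_eq_one.1 h⟩
  have hord : orderOf (π (g : Δ)) = B.q := by
    rw [← Nat.card_zpowers, ← hzk]
    have hidx : φ.ker.index = B.q := by
      rw [Subgroup.index_ker, MonoidHom.range_eq_top.2 hφ, Subgroup.card_top,
        Nat.card_congr Multiplicative.toAdd, Nat.card_zmod]
    have h2 := φ.ker.index_mul_card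
    rw [hidx, ← hθcard] at h2
    exact (Nat.eq_of_mul_eq_mul_right Nat.card_pos h2).symm
  refine not_stem_of_bcert C hA hq hsc θ hθ (π (g : Δ)) hzk hord (fun i => π (s i))
    (fun i => by rw [← MonoidHom.comp_apply, hcomp, hs]) (fun l => π (δ l : Δ))
    (fun l => hθk ▸ Subgroup.mem_map_of_mem π (δ l).2)
    (fun j hj => by rw [← map_pow, hδp j hj, map_mul, map_evalW])
    (fun j hj i hi => by rw [← map_mul, hδc j hj i hi, map_mul, map_mul, map_evalW])
    (fun L hL => ?_)
  have h := hπ1 _ (hkill L hL)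
  have e : ∀ M : List ℕ, π ((M.map δ).prod : τ.ker) = (M.map fun l => π (δ l : Δ)).prod := by
    intro M
    induction M with
    | nil => simp
    | cons a M ih =>
      rw [List.map_cons, List.prod_cons, List.map_cons, List.prod_cons, Subgroup.coe_mul, map_mul, ih]
  rwa [e] at h

/-- The two certificates bound the `p`-part of the multiplier. -/
theorem factorization_schurMult_le_rank {p k r : ℕ} {B₁ B₂ : BCert} {gen₁ gsE₁ gen₂ gsE₂ : ℕ → G}
    (h₁ : Applies C B₁ p gen₁ gsE₁) (h₂ : Applies C B₂ p gen₂ gsE₂)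
    (hq₁ : B₁.q = p) (hs₁ : B₁.scale = 1) (hk₁ : B₁.kills.length ≤ r)
    (hq₂ : B₂.q = p ^ (k + 1)) (hs₂ : B₂.scale = p ^ k) (hk₂ : B₂.kills = []) :
    (Nat.card (CentralExt.schurMult G)).factorization p ≤ r * k := by
  classical
  have hp := h₁.hp
  haveI : Fact p.Prime := ⟨hp⟩
  obtain ⟨W, iW, fW, θ₀, hθ₀, ⟨e⟩⟩ := CentralExt.exists_schurCover G
  obtain ⟨Δ, iΔ, fΔ, τ, hτ, hpk, hcard⟩ := CentralExt.exists_pgroup_quotient hθ₀ p
  rw [Nat.card_congr e.toEquiv] at hcard
  let _ : CommGroup τ.ker :=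
    { (inferInstance : Group τ.ker) with
      mul_comm := fun a b => Subtype.ext ((Subgroup.mem_center_iff.1 (hτ.2.1 b.2)) (a : Δ)) }
  obtain ⟨ι, fι, N, hN, ⟨E⟩⟩ := CommGroup.equiv_prod_multiplicative_zmod_of_finite τ.ker
  have hNdvd : ∀ i, ∃ a, N i = p ^ a ∧ 0 < a := by
    intro i
    haveI : NeZero (N i) := ⟨(zero_lt_one.trans (hN i)).ne'⟩
    have hd : N i ∣ Nat.card τ.ker := by
      rw [Nat.card_congr E.toEquiv, Nat.card_pi]
      refine dvd_trans ?_ (Finset.dvd_prod_of_mem _ (Finset.mem_univ i))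
      rw [Nat.card_congr Multiplicative.toAdd, Nat.card_zmod]
    rw [hcard] at hd
    obtain ⟨a, -, ha⟩ := (Nat.dvd_prime_pow hp).1 hd
    exact ⟨a, ha, Nat.pos_of_ne_zero fun h => by
      have := hN i
      rw [ha, h, pow_zero] at this
      exact lt_irrefl 1 this⟩
  choose a ha hapos using hNdvd
  by_cases hbig : ∃ i, k < a i
  · obtain ⟨i, hi⟩ := hbig
    exfalso
    have hgrp := h₂.hcheck
    simp only [BCert.check, Bool.and_eq_true] at hgrp
    obtain ⟨hsat, -⟩ := card_initGroup_of_groupOK C B₂.D (h₂.hP.symm ▸ hp) gen₂ h₂.hgen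
      hgrp.1.1.1 hgrp.1.1.2
    obtain ⟨δ, hδk, hδp, hδc⟩ := exists_defects gen₂ hsat τ
      (fun i => Function.surjInv hτ.1 (gen₂ i)) (fun i => Function.surjInv_eq hτ.1 _)
    have hdvd : B₂.q ∣ N i := by rw [hq₂, ha]; exact pow_dvd_pow p hi
    let φ : τ.ker →* Multiplicative (ZMod B₂.q) :=
      ((ZMod.castHom hdvd (ZMod B₂.q)).toAddMonoidHom.toMultiplicative.comp
        (Pi.evalMonoidHom (fun i => Multiplicative (ZMod (N i))) i)).comp E.toMonoidHom
    refine not_hom_of_bcert C h₂ (by rw [hq₂, hs₂, pow_succ']) (by rw [hs₂]; exact pow_pos hp.pos k)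
      τ hτ _ (fun i => Function.surjInv_eq hτ.1 _) (fun l => ⟨δ l, hδk l⟩) hδp hδc φ ?_
      (fun L hL => by rw [hk₂] at hL; exact absurd hL List.not_mem_nil)
    intro y
    obtain ⟨x, hx⟩ := ZMod.castHom_surjective hdvd (Multiplicative.toAdd y)
    refine ⟨E.symm (Pi.mulSingle i (Multiplicative.ofAdd x)), ?_⟩
    simp [φ, hx]
  · push Not at hbig
    have hle : Nat.card τ.ker ≤ p ^ (Fintype.card ι * k) := by
      rw [Nat.card_congr E.toEquiv, Nat.card_pi, mul_comm, pow_mul]
      calc ∏ i, Nat.card (Multiplicative (ZMod (N i))) ≤ ∏ _i : ι, p ^ k :=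
            Finset.prod_le_prod' fun i _ => by
              rw [Nat.card_congr Multiplicative.toAdd, Nat.card_zmod, ha]
              exact Nat.pow_le_pow_right hp.pos (hbig i)
        _ = (p ^ k) ^ Fintype.card ι := by rw [Finset.prod_const, Finset.card_univ]
    rw [hcard, Nat.pow_le_pow_iff_right hp.one_lt] at hle
    by_cases hι : Fintype.card ι ≤ r
    · exact hle.trans (Nat.mul_le_mul_right k hι)
    exfalso
    have hgrp := h₁.hcheck
    simp only [BCert.check, Bool.and_eq_true] at hgrp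
    obtain ⟨hsat, -⟩ := card_initGroup_of_groupOK C B₁.D (h₁.hP.symm ▸ hp) gen₁ h₁.hgen
      hgrp.1.1.1 hgrp.1.1.2
    obtain ⟨δ, hδk, hδp, hδc⟩ := exists_defects gen₁ hsat τ
      (fun i => Function.surjInv hτ.1 (gen₁ i)) (fun i => Function.surjInv_eq hτ.1 _)
    have hdvd : ∀ i, p ∣ N i := fun i => by
      rw [ha]
      exact dvd_pow_self p (hapos i).ne'
    let red : τ.ker → ι → ZMod p := fun x i =>
      ZMod.castHom (hdvd i) (ZMod p) (Multiplicative.toAdd (E x i))
    let w : Fin B₁.kills.length → ι → ZMod p := fun l =>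
      red ((B₁.kills.get l).map fun j => (⟨δ j, hδk j⟩ : τ.ker)).prod
    have hlt : Submodule.span (ZMod p) (Set.range w) < ⊤ := by
      refine lt_top_iff_ne_top.2 fun htop => hι ?_
      have h := finrank_range_le_card (R := ZMod p) w
      rw [Set.finrank, htop, finrank_top, Module.finrank_fintype_fun_eq_card,
        Fintype.card_fin] at h
      exact h.trans hk₁
    obtain ⟨f, hf0, hf⟩ := Submodule.exists_le_ker_of_lt_top _ hlt
    let φ₀ : τ.ker →* Multiplicative (ZMod p) :=
      { toFun := fun x => Multiplicative.ofAdd (f (red x))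
        map_one' := by
          have h1 : red 1 = 0 := by funext i; simp [red]
          simp [h1]
        map_mul' := fun x y => by
          have h1 : red (x * y) = red x + red y := by
            funext i
            simp only [red, map_mul, Pi.mul_apply, toAdd_mul, map_add, Pi.add_apply]
          simp [h1] }
    let φ : τ.ker →* Multiplicative (ZMod B₁.q) :=
      ((ZMod.castHom (dvd_of_eq hq₁) (ZMod B₁.q)).toAddMonoidHom.toMultiplicative).comp φ₀
    refine not_hom_of_bcert C h₁ (by rw [hq₁, hs₁, mul_one]) (by rw [hs₁]; exact one_pos)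
      τ hτ _ (fun i => Function.surjInv_eq hτ.1 _) (fun l => ⟨δ l, hδk l⟩) hδp hδc φ ?_ ?_
    · intro y
      obtain ⟨u, hu⟩ := ZMod.castHom_surjective (dvd_of_eq hq₁) (Multiplicative.toAdd y)
      obtain ⟨v, hv⟩ := LinearMap.surjective hf0 u
      choose g hg using fun i => ZMod.castHom_surjective (hdvd i) (v i)
      refine ⟨E.symm fun i => Multiplicative.ofAdd (g i), ?_⟩
      have hr : red (E.symm fun i => Multiplicative.ofAdd (g i)) = v := by
        funext i; simpa [red] using hg i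
      simp [φ, φ₀, hr, hv, hu]
    · intro L hL
      obtain ⟨l, hl⟩ := List.mem_iff_get.1 hL
      have h0 : f (w l) = 0 := hf (Submodule.subset_span ⟨l, rfl⟩)
      simp only [w, hl] at h0
      simp [φ, φ₀, h0]

end Cfsg.Agent.SchurBound
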